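import Cfsg.Agent.Bal.PSLb3
import Cfsg.Agent.Bal.FamP
import Cfsg.Agent.GLn.AutThm

/-! Balance for the projective special linear groups. -/

set_option autoImplicit false

open Matrix

namespace Cfsg.Agent.Bal

open Cfsg.Agent.Polar Cfsg.Agent.Polar.PQ Cfsg.Agent.GLn

variable {F : Type*} [Field F] {ι : Type*} [Fintype ι] [DecidableEq ι] {p : ℕ}

local notation "SLι" => Matrix.SpecialLinearGroup ι F
local notation "PSLι" => Matrix.ProjectiveSpecialLinearGroup ι F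
local notation "Pι" => zeroP F (ι → F)

/-- `SL` inside the full linear group -/
noncomputable def pscJ : SLι →* (Pι).Iso := Matrix.SpecialLinearGroup.toLin'.codRestrict _ fun _ => mem_zeroP _

theorem pscJ_smul (g : SLι) (v : ι → F) : pscJ g • v = g.1 *ᵥ v := rfl

theorem pscJ_inj {g h : SLι} (e : ∀ v, g.1 *ᵥ v = h.1 *ᵥ v) : g = h :=
  Subtype.ext (Matrix.toLin'.injective (LinearMap.ext e))

theorem psc_ker (g : SLι) : (g : PSLι) = 1 ↔ pscJ g ∈ Sc Pι := by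
  rw [QuotientGroup.eq_one_iff]
  refine ⟨fun h => ?_, fun h => Subgroup.mem_center_iff.2 fun x => pscJ_inj fun v => ?_⟩
  · obtain ⟨r, -, hr⟩ := Matrix.SpecialLinearGroup.mem_center_iff.1 h
    exact ⟨r, fun v => by rw [pscJ_smul, ← hr]; ext i; simp [mulVec_diagonal]⟩
  · rw [← pscJ_smul, ← pscJ_smul, map_mul, map_mul, (sc_commute h _).eq]

variable (ι F) in
/-- automorphisms together with semilinear maps inducing them -/
def PscRel : Subgroup (MulAut PSLι × RingAut F × Equiv.Perm (ι → F)) where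
  carrier := {x | (∀ u v, x.2.2 (u + v) = x.2.2 u + x.2.2 v) ∧ (∀ (a : F) v, x.2.2 (a • v) = x.2.1 a • x.2.2 v) ∧
    ∃ c : Equiv.Perm SLι, ∀ g : SLι, x.1 g = (c g : SLι) ∧ ∀ v, pscJ (c g) • x.2.2 v = x.2.2 (pscJ g • v)}
  one_mem' := ⟨fun _ _ => rfl, fun _ _ => rfl, 1, fun _ => ⟨rfl, fun _ => rfl⟩⟩
  mul_mem' := by
    rintro ⟨φ, σ, Θ⟩ ⟨φ', σ', Θ'⟩ ⟨h1, h2, c, h3⟩ ⟨k1, k2, d, k3⟩
    exact ⟨fun u v => (congrArg Θ (k1 u v)).trans (h1 _ _), fun a v => (congrArg Θ (k2 a v)).trans (h2 _ _), c * d,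
      fun g => ⟨(congrArg φ (k3 g).1).trans (h3 _).1, fun v => ((h3 _).2 _).trans (congrArg Θ ((k3 g).2 v))⟩⟩
  inv_mem' := by
    rintro ⟨φ, σ, Θ⟩ ⟨h1, h2, c, h3⟩
    refine ⟨fun u v => Θ.injective ?_, fun a v => Θ.injective ?_, c⁻¹, fun g => ⟨φ.injective ?_, fun v => Θ.injective ?_⟩⟩
    · simpa using (h1 (Θ⁻¹ u) (Θ⁻¹ v)).symm
    · have := h2 (σ.symm a) (Θ⁻¹ v)
      simpa using this.symm
    · simpa using (h3 (c⁻¹ g)).1.symm
    · simpa using ((h3 (c⁻¹ g)).2 (Θ⁻¹ v)).symm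

variable {φ : MulAut (Matrix.ProjectiveSpecialLinearGroup ι F)} {σ : RingAut F} {Θ : Equiv.Perm (ι → F)}

theorem psc_cj (g : GL ι F) (h : ∀ v, Θ v = g.1 *ᵥ v) : (autQ SLι (cjSL g), (1 : RingAut F), Θ) ∈ PscRel F ι :=
  ⟨fun u v => by simp only [h, mulVec_add], fun a v => by simp only [h, mulVec_smul]; rfl, (cjSL g).toEquiv,
    fun x => ⟨rfl, fun v => by
      change (cjSL g x).1 *ᵥ Θ v = Θ (x.1 *ᵥ v)
      rw [h, h, cjSL_val, mulVec_mulVec, mulVec_mulVec, Units.inv_mul_cancel_right]⟩⟩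

theorem psc_fld (σ : F ≃+* F) :
    (autQ SLι (fldSL σ), (σ : RingAut F), (Equiv.piCongrRight fun _ : ι => σ.toEquiv)) ∈ PscRel F ι :=
  ⟨fun u v => funext fun i => map_add σ (u i) (v i), fun a v => funext fun i => map_mul σ a (v i), (fldSL σ).toEquiv,
    fun x => ⟨rfl, fun v => funext fun i => ((σ : F →+* F).map_mulVec x.1 v i).symm⟩⟩

theorem psc_iso (y : (Pι).Iso) : ∃ φ, (φ, (1 : RingAut F), MulAction.toPermHom (Pι).Iso (ι → F) y) ∈ PscRel F ι :=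
  ⟨_, psc_cj ⟨LinearMap.toMatrix' (lin y), LinearMap.toMatrix' (lin y⁻¹),
    by rw [← LinearMap.toMatrix'_mul, ← lin_mul, mul_inv_cancel, lin_one, LinearMap.toMatrix'_one],
    by rw [← LinearMap.toMatrix'_mul, ← lin_mul, inv_mul_cancel, lin_one, LinearMap.toMatrix'_one]⟩
    fun v => by rw [LinearMap.toMatrix'_mulVec]; rfl⟩

theorem psc_std (g : GL ι F) (σ : F ≃+* F) : autQ SLι (cjSL g * fldSL σ) ∈ (PscRel F ι).map (MonoidHom.fst _ _) :=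
  ⟨_, mul_mem (psc_cj (Θ := ⟨(g.1 *ᵥ ·), ((g⁻¹).1 *ᵥ ·), fun v => by simp, fun v => by simp⟩) g fun _ => rfl)
    (psc_fld σ), (map_mul _ _ _).symm⟩

theorem psc_odd (hp : Odd p) (h : StdAut φ) (h1 : φ ^ p = 1) : ∃ σ Θ, (φ, σ, Θ) ∈ PscRel F ι := by
  suffices φ ∈ (PscRel F ι).map (MonoidHom.fst _ _) by
    obtain ⟨⟨_, σ, Θ⟩, h', rfl⟩ := this
    exact ⟨σ, Θ, h'⟩
  obtain ⟨g, σ, h | h⟩ := h
  · exact h ▸ psc_std g σ
  obtain ⟨k, rfl⟩ := hp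
  have e : φ * φ = autQ SLι (cjSL (g * fldGL σ (grfGL g)) * fldSL (σ * σ)) := by
    rw [h, ← map_mul, map_mul cjSL, map_mul fldSL, mul_assoc (cjSL g) (cjSL _), ← mul_assoc (cjSL (fldGL σ _)),
      ← fldSL_cjSL, mul_assoc, mul_assoc, ← mul_assoc grfSL, grfSL_cjSL, mul_assoc, ← mul_assoc grfSL, grfSL_fldSL,
      mul_assoc, grfSL_sq, mul_one, mul_assoc]
  have : φ = ((φ * φ) ^ k)⁻¹ := eq_inv_of_mul_eq_one_right (by rw [← h1, ← sq, ← pow_mul, pow_succ])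
  rw [this, e]
  exact inv_mem (pow_mem (psc_std _ _) k)

theorem psc_scale (h : (φ, σ, Θ) ∈ PscRel F ι) {Θ' : Equiv.Perm (ι → F)} {t : F} (ht : ∀ v, Θ' v = t • Θ v) :
    (φ, σ, Θ') ∈ PscRel F ι := by
  obtain ⟨h1, h2, c, h3⟩ := h
  dsimp only at h1 h2 h3
  refine ⟨fun u v => ?_, fun a v => ?_, c, fun g => ⟨(h3 g).1, fun v => ?_⟩⟩ <;> dsimp only
  · rw [ht, ht, ht, h1, smul_add]
  · rw [ht, ht, h2, smul_comm]
  · rw [ht, ht, act_smul, (h3 g).2]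

theorem psc_uniq (h : (φ, σ, 1) ∈ PscRel F ι) : φ = 1 := by
  obtain ⟨-, -, c, h3⟩ := h
  ext x
  obtain ⟨g, rfl⟩ := QuotientGroup.mk_surjective x
  exact (h3 g).1.trans (congrArg _ (pscJ_inj (h3 g).2))

theorem psc_fix (h : (φ, σ, Θ) ∈ PscRel F ι) {g : SLι} (hg : φ g = g) :
    ∃ z : F, ∀ v, pscJ g • Θ v = z • Θ (pscJ g • v) := by
  obtain ⟨-, -, c, h3⟩ := h
  obtain ⟨t, ht⟩ := (psc_ker (g * (c g)⁻¹)).1 (by
    rw [QuotientGroup.mk_mul, QuotientGroup.mk_inv, ← (h3 g).1, hg, mul_inv_cancel])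
  exact ⟨t, fun v => by rw [← (h3 g).2, ← ht, ← mul_smul]; simp⟩

theorem psc_rigid [Nontrivial ι] (h : (1, σ, Θ) ∈ PscRel F ι) : σ = 1 ∧ ∃ s : F, ∀ v, Θ v = s • v := by
  have h0 : Θ 0 = 0 := by simpa using h.2.1 0 0
  have tv : ∀ {i j : ι} (hij : i ≠ j) (a : F) (v : ι → F),
      pscJ (Matrix.SpecialLinearGroup.transvection hij a) • v = v + Pi.single i (a * v j) := fun hij a v => by
    rw [pscJ_smul, tv_coe, add_mulVec, one_mulVec, single_mulVec_eq, ← Pi.single_smul', smul_eq_mul, mul_one]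
  have k1 : ∀ {i j : ι}, i ≠ j → ∀ a : F, Θ (Pi.single i a) = Pi.single i (a * Θ (Pi.single j 1) j) := by
    intro i j hij a
    obtain ⟨z, hz⟩ := psc_fix h (g := Matrix.SpecialLinearGroup.transvection hij a) rfl
    simp only [tv] at hz
    have h1 := hz (Pi.single i 1)
    rw [Pi.single_eq_of_ne' hij, mul_zero, Pi.single_zero, add_zero] at h1
    have h2 : Θ (Pi.single i 1) ≠ 0 := fun e => by simpa using Θ.injective (e.trans h0.symm)
    obtain rfl : z = 1 := by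
      by_contra hz1
      have h3 : Θ (Pi.single i 1) j = 0 := by
        have := congrFun h1 j
        simp only [Pi.add_apply, Pi.single_eq_of_ne' hij, add_zero, Pi.smul_apply, smul_eq_mul] at this
        exact (mul_eq_zero.1 (show (z - 1) * Θ (Pi.single i 1) j = 0 by linear_combination -this)).resolve_left
          (sub_ne_zero.2 hz1)
      rw [h3, mul_zero, Pi.single_zero, add_zero] at h1
      exact hz1 (smul_left_injective F h2 (h1.symm.trans (one_smul _ _).symm))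
    have h3 := hz (Pi.single j 1)
    rw [h.1, one_smul, Pi.single_eq_same, mul_one] at h3
    exact (add_left_cancel h3).symm
  have k2 : ∀ i j : ι, Θ (Pi.single i 1) i = Θ (Pi.single j 1) j := fun i j => by
    by_cases hij : i = j
    · rw [hij]
    · rw [k1 hij, Pi.single_eq_same, one_mul]
  obtain ⟨i0, j0, h1⟩ := exists_pair_ne ι
  have k3 : ∀ i a, Θ (Pi.single i a) = Θ (Pi.single i0 1) i0 • Pi.single i a := fun i a => by
    obtain ⟨j, hj⟩ := exists_ne i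
    rw [k1 hj.symm, k2 j i0, ← Pi.single_smul', smul_eq_mul, mul_comm]
  have h2 : Θ (Pi.single i0 1) ≠ 0 := fun e => by simpa using Θ.injective (e.trans h0.symm)
  generalize Θ (Pi.single i0 1) i0 = s at k3
  refine ⟨RingEquiv.ext fun a => smul_left_injective F h2 ?_, s, fun v => ?_⟩
  · refine (h.2.1 a _).symm.trans ?_
    change Θ _ = a • _
    rw [← Pi.single_smul', smul_eq_mul, mul_one, k3, k3 i0 1, smul_comm a, ← Pi.single_smul' i0 a, smul_eq_mul,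
      mul_one]
  · change AddMonoidHom.mk' Θ h.1 v = _
    rw [← Finset.univ_sum_single v, map_sum, Finset.smul_sum]
    exact Finset.sum_congr rfl fun i _ => k3 i _

theorem psc_loc {E : Subgroup (MulAut PSLι)} {g : SLι} (hg : Hyp p E (g : PSLι)) (he : φ ∈ E) (h1 : φ ≠ 1)
    (h : (φ, σ, Θ) ∈ PscRel F ι) : Loc p Θ (pscJ g) := by
  obtain ⟨N, n1, n2, -, n4⟩ := hg.core φ he h1
  refine ⟨(N.comap (QuotientGroup.mk' _)).map pscJ, ⟨g, n1, rfl⟩, ?_, fun x hx => ?_⟩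
  · rintro _ ⟨y, hy, rfl⟩
    exact ⟨_, n2, map_pow pscJ y _ ▸ (psc_ker (y ^ Nat.card N)).1
      ((QuotientGroup.mk_pow _ _ _).trans (congrArg Subtype.val (pow_card_eq_one' (x := (⟨y, hy⟩ : N)))))⟩
  · rintro _ ⟨y, hy, rfl⟩
    obtain ⟨θ, hθ⟩ := psc_iso x
    have h2 := mul_mem (mul_mem hθ h) (inv_mem (mul_mem h hθ))
    simp only [Prod.mk_mul_mk, Prod.inv_mk] at h2
    rw [show MulAction.toPermHom (Pι).Iso (ι → F) x * Θ = Θ * MulAction.toPermHom (Pι).Iso (ι → F) x from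
      Equiv.ext hx, mul_inv_cancel] at h2
    obtain ⟨-, -, c, h3⟩ := hθ
    refine ⟨c y, (congrArg (· ∈ N) (h3 y).1).mp (n4 θ (mul_inv_eq_one.1 (psc_uniq h2)) _ hy), iso_ext fun v => ?_⟩
    simpa [mul_smul] using (h3 y).2 (x⁻¹ • v)

theorem psc_bal [Finite F] [Nontrivial ι] [Fact p.Prime] (hp2 : p ≠ 2) (hpF : (p : F) ≠ 0)
    (hA : ∀ φ : MulAut PSLι, StdAut φ) : Bal p PSLι := fun E g hg => by
  have := cyc_ringAut F
  have hp : p.Prime := Fact.out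
  obtain ⟨g, rfl⟩ := QuotientGroup.mk_surjective g
  refine (psc_ker g).2 ?_
  have rg := fun σ Θ => psc_rigid (ι := ι) (F := F) (σ := σ) (Θ := Θ)
  choose σ Θ hR using fun φ : E => psc_odd (hp.odd_of_ne_two hp2) (hA φ) (hg.pow φ φ.2)
  have hΘ : ∀ φ, ∃ s : F, ∀ v, (Θ φ)^[p] v = s • v := fun φ => by
    have := pow_mem (hR φ) p
    rw [Prod.pow_mk, Prod.pow_mk, hg.pow φ φ.2] at this
    exact (rg _ _ this).2.imp fun s h v => by rw [← h, Equiv.Perm.coe_pow]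
  have sc : ∀ {y : (Pι).Iso}, (1, (1 : RingAut F), MulAction.toPermHom (Pι).Iso (ι → F) y) ∈ PscRel F ι → y ∈ Sc Pι :=
    fun h => (rg _ _ h).2
  have ns : ∀ {φ : MulAut PSLι} {y : (Pι).Iso},
      (φ, (1 : RingAut F), MulAction.toPermHom (Pι).Iso (ι → F) y) ∈ PscRel F ι → y ∈ Sc Pι → φ = 1 :=
    fun {φ y} h ⟨t, ht⟩ => psc_uniq (psc_scale (t := t⁻¹) h fun v => by
      obtain ⟨e, he⟩ := exists_ne (0 : ι → F)
      have t0 : t ≠ 0 := fun h0 => act_ne_zero y he (by rw [ht, h0, zero_smul])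
      exact ((inv_smul_eq_iff₀ t0).2 (ht v)).symm)
  have lift : ∀ φ : E, σ φ = 1 → ∃ y : (Pι).Iso,
      (φ.1, (1 : RingAut F), MulAction.toPermHom (Pι).Iso (ι → F) y) ∈ PscRel F ι ∧ y ^ p ∈ Sc Pι := fun φ h => by
    obtain ⟨a, ha⟩ : ∃ a : (Pι).Iso, ∀ v, a • v = (1 : F) • Θ φ v := ⟨⟨⟨⟨⟨Θ φ, (hR φ).1⟩, fun a v =>
      ((hR φ).2.1 a v).trans (by simp [h])⟩, (Θ φ).symm, (Θ φ).left_inv, (Θ φ).right_inv⟩, mem_zeroP _⟩,
        fun v => (one_smul _ _).symm⟩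
    have h1 := psc_scale (h ▸ hR φ) (Θ' := MulAction.toPermHom (Pι).Iso (ι → F) a) ha
    refine ⟨a, h1, sc ?_⟩
    simpa [hg.pow φ φ.2, -MulAction.toPermHom_apply] using pow_mem h1 p
  obtain ⟨b, b1, hb⟩ := hg.exists_ker (MonoidHom.mk' σ fun φ ψ =>
    mul_inv_eq_one.1 (rg _ _ (by simpa using mul_mem (hR (φ * ψ)) (inv_mem (mul_mem (hR φ) (hR ψ))))).1)
  have b1' : b.1 ≠ 1 := fun h => b1 (Subtype.ext h)
  obtain ⟨a, ha, hab⟩ := hg.exists_gen b.2 b1'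
  have a1 : a ≠ 1 := fun h => hp.one_lt.ne' (Nat.dvd_one.1 (hab 0 1 (by simp [h])).2)
  obtain ⟨y, y1, y2⟩ := lift b hb
  by_cases h : σ ⟨a, ha⟩ = 1
  · obtain ⟨x, x1, x2⟩ := lift _ h
    have pw : ∀ i j : ℕ, (b.1 ^ i * a ^ j, (1 : RingAut F),
        MulAction.toPermHom (Pι).Iso (ι → F) (y ^ i * x ^ j)) ∈ PscRel F ι :=
      fun i j => by simpa [-MulAction.toPermHom_apply] using mul_mem (pow_mem y1 i) (pow_mem x1 j)
    obtain ⟨N, n1, n2, -⟩ := psc_loc hg b.2 b1' y1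
    obtain ⟨m, m1, m2⟩ := n2 _ n1
    refine lin_zero hp hp2 hpF zeroP_B y x _ y2 x2 (sc ?_) (fun i j h => hab i j (ns (pw i j) h))
      ((psc_fix y1 (hg.fix b.2)).elim fun _ => commute_of_sc m1 m2 y2)
      ((psc_fix x1 (hg.fix ha)).elim fun _ => commute_of_sc m1 m2 x2) fun i j h =>
        psc_loc hg (mul_mem (pow_mem b.2 i) (pow_mem ha j)) (fun e => h (hab i j e)) (pw i j)
    simpa [hg.comm b b.2 a ha, -MulAction.toPermHom_apply] using mul_mem (mul_mem (mul_mem y1 x1) (inv_mem y1)) (inv_mem x1)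
  · refine fld_zero hp hp2 hpF zeroP_B ⟨σ ⟨a, ha⟩, AddEquiv.mk' (Θ ⟨a, ha⟩) (hR _).1, 1, one_ne_zero, fun _ => rfl,
      (hR _).2.1, fun _ _ => by simp [zeroP_B], fun _ _ => Iff.rfl⟩ h (hΘ _) _ y (psc_loc hg ha a1 (hR ⟨a, ha⟩)) y2
      (fun h => b1' (ns y1 h)) (psc_fix (hR ⟨a, ha⟩) (hg.fix ha)) ?_
    have := mul_mem (mul_mem y1 (hR ⟨a, ha⟩)) (inv_mem (mul_mem (hR ⟨a, ha⟩) y1))
    simp only [Prod.mk_mul_mk, Prod.inv_mk, hg.comm b b.2 a ha, mul_inv_cancel] at this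
    obtain ⟨z, hz⟩ := (rg _ _ this).2
    exact ⟨z, fun v => show y • Θ ⟨a, ha⟩ v = z • Θ ⟨a, ha⟩ (y • v) by simpa using hz (Θ ⟨a, ha⟩ (y • v))⟩

theorem fam_PSLc {G : Type*} [Group G] {r p : ℕ} [Fact r.Prime] [Fact p.Prime] (hG : Cfsg.IsPSLChar r G)
    (hp2 : p ≠ 2) (hpr : p ≠ r) : Bal p G := by
  obtain ⟨F, _, _, _, n, hn, -, ⟨φ⟩⟩ := hG
  obtain ⟨m, rfl⟩ : ∃ m, n = m + 2 := ⟨n - 2, by omega⟩
  exact Bal.congr φ (psc_bal hp2 (cast_ne_of_char F hpr) (stdAut_all (m := m + 1) (by omega)))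

end Cfsg.Agent.Bal
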